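import Cfsg.Agent.PrimeTI.EvenCase
import Cfsg.Agent.PrimeTI.OddCase
import Cfsg.Agent.S0806
import Cfsg.Agent.Chars.Basic.Linear
import Mathlib.GroupTheory.Perm.Cycle.Type
import Mathlib.GroupTheory.GroupAction.Primitive
import Mathlib.GroupTheory.Commutator.Basic

/-!
# Transitive groups of prime degree with a TI complement and one character of degree `p`
-/

set_option autoImplicit false

noncomputable section

namespace CfsgLib.PrimeTI

open Cfsg CfsgLib
open scoped Pointwise

universe u v

variable {α : Type v} [Fintype α] [DecidableEq α] {p : ℕ} [hp : Fact p.Prime]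

theorem exists_index_eq {A B : Type*} [Group A] [Group B] (e : A ≃* B) (S : Subgroup A) :
    ∃ T : Subgroup B, T.index = S.index :=
  ⟨S.comap e.symm.toMonoidHom, S.index_comap_of_surjective e.symm.surjective⟩

omit hp in
theorem sign_one_of_semiregular {σ : Equiv.Perm α} {e m : ℕ} (he : orderOf σ = e) (he2 : 2 ≤ e)
    (hcard : Fintype.card α = e * m + 1)
    (hfix : ∀ x : ℕ, σ ^ x ≠ 1 → ∀ a b : α, (σ ^ x) a = a → (σ ^ x) b = b → a = b) :
    Equiv.Perm.sign σ = (-1) ^ (e * m + m) := by
  have hall : ∀ l ∈ σ.cycleType, l = e := by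
    intro l hl
    refine Nat.dvd_antisymm (he ▸ Equiv.Perm.dvd_of_mem_cycleType hl) ?_
    obtain ⟨c, τ, hστ, hd, hc, hlc⟩ := Equiv.Perm.mem_cycleType_iff.1 hl
    by_contra hne
    have hσl : σ ^ l ≠ 1 := fun h => hne (he ▸ orderOf_dvd_of_pow_eq_one h)
    have h2 : 1 < c.support.card := hlc ▸ Equiv.Perm.two_le_of_mem_cycleType hl
    obtain ⟨a, ha, b, hb, hab⟩ := Finset.one_lt_card.1 h2
    refine hab (hfix l hσl a b ?_ ?_)
    all_goals
      rw [hστ, hd.commute.mul_pow, ← hlc, ← hc.orderOf, pow_orderOf_eq_one, one_mul]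
      refine Equiv.Perm.pow_apply_eq_self_of_apply_eq_self
        ((hd _).resolve_left ?_) _
      first
        | exact Equiv.Perm.mem_support.1 ha
        | exact Equiv.Perm.mem_support.1 hb
  have hsum : σ.cycleType.sum = Multiset.card σ.cycleType * e := by
    conv_lhs => rw [Multiset.eq_replicate_card.2 hall]
    rw [Multiset.sum_replicate, smul_eq_mul]
  have hsupp : σ.support.card = σ.cycleType.sum := σ.sum_cycleType.symm
  have hone : Fintype.card α ≤ σ.support.card + 1 := by
    have h1 : σ ≠ 1 := fun h => by rw [h, orderOf_one] at he; omega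
    have h2 : (Finset.univ \ σ.support).card ≤ 1 := Finset.card_le_one.2 fun a ha b hb => by
      simp only [Finset.mem_sdiff, Equiv.Perm.mem_support, not_not] at ha hb
      exact hfix 1 (by rwa [pow_one]) a b (by rw [pow_one]; exact ha.2) (by rw [pow_one]; exact hb.2)
    rw [Finset.card_univ_diff] at h2
    omega
  have hle : σ.support.card ≤ Fintype.card α := Finset.card_le_univ _
  have hkm : Multiset.card σ.cycleType = m := by
    rcases Nat.lt_trichotomy (Multiset.card σ.cycleType) m with h | h | h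
    · have := Nat.mul_le_mul_right e (Nat.succ_le_of_lt h)
      rw [Nat.succ_mul] at this
      rw [mul_comm e] at hcard
      omega
    · exact h
    · have := Nat.mul_le_mul_right e (Nat.succ_le_of_lt h)
      rw [Nat.succ_mul] at this
      rw [mul_comm e] at hcard
      omega
  rw [Equiv.Perm.sign_of_cycleType, hsum, hkm, mul_comm]

set_option maxHeartbeats 1000000 in
theorem perm_main (hα : Fintype.card α = p) (G : Subgroup (Equiv.Perm α))
    [MulAction.IsPretransitive G α]
    (huniq : ∃! χ : IrrCharacter G, charDegree (χ : G → ℂ) = p) (P : Sylow p G) (E : Subgroup G)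
    (hPE : (P : Subgroup G) ⊔ E = Subgroup.normalizer ((P : Subgroup G) : Set G))
    (hPE' : (P : Subgroup G) ⊓ E = ⊥)
    (hNE : Nat.card (Subgroup.normalizer (E : Set G)) = 2 * Nat.card E)
    (hTI : ∀ g : G, g ∉ Subgroup.normalizer (E : Set G) →
      E ⊓ E.map (MulAut.conj g).toMonoidHom = ⊥) :
    (p = 5 ∨ p = 7 ∨ p = 11) ∧ ∃ (F : Type) (_ : Field F) (_ : Fintype F),
      Fintype.card F = p ∧ Nonempty (G ≃* Matrix.ProjectiveSpecialLinearGroup (Fin 2) F) := by
  classical
  letI : Fintype G := Fintype.ofFinite G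
  have hαc : Nat.card α = p := by rw [Nat.card_eq_fintype_card, hα]
  haveI : Nonempty α := Fintype.card_pos_iff.1 (hα ▸ hp.out.pos)
  have a₀ : α := Classical.arbitrary α
  have hdvd : p ∣ Nat.card G := by
    have h := (MulAction.stabilizer G a₀).index_dvd_card
    rwa [MulAction.index_stabilizer_of_transitive, hαc] at h
  have hsq : ¬ p ^ 2 ∣ Nat.card G := fun h => by
    have h1 := h.trans (Subgroup.card_subgroup_dvd_card G)
    rw [Nat.card_perm, hαc, ← Nat.mul_factorial_pred hp.out.ne_zero, pow_two,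
      Nat.mul_dvd_mul_iff_left hp.out.pos, hp.out.dvd_factorial] at h1
    have := hp.out.two_le
    omega
  have hPc : Nat.card P = p := by
    rw [Sylow.card_eq_multiplicity]
    have h1 : 0 < (Nat.card G).factorization p :=
      hp.out.factorization_pos_of_dvd Nat.card_pos.ne' hdvd
    have h2 : (Nat.card G).factorization p < 2 := by
      by_contra h
      exact hsq ((pow_dvd_pow p (not_lt.1 h)).trans (Nat.ordProj_dvd _ p))
    rw [show (Nat.card G).factorization p = 1 by omega, pow_one]
  obtain ⟨u₀, hu, hz, hidx⟩ := Blocks.OrderP.exists_generator_sylow P hPc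
  rw [← hz] at hPE hPE'
  -- regularity of the Sylow subgroup
  have hup : orderOf (u₀ : Equiv.Perm α) = Fintype.card α := by rw [Subgroup.orderOf_coe, hu, hα]
  have hcyc : (u₀ : Equiv.Perm α).IsCycle :=
    Equiv.Perm.isCycle_of_prime_order'' (hα ▸ hp.out) hup
  have hmove : ∀ a : α, (u₀ : Equiv.Perm α) a ≠ a := fun a => by
    have h : (u₀ : Equiv.Perm α).support = Finset.univ :=
      Finset.eq_univ_of_card _ (by rw [← hcyc.orderOf, hup])
    exact Equiv.Perm.mem_support.1 (h ▸ Finset.mem_univ a)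
  have hcomm_ext : ∀ c d : G, c * u₀ = u₀ * c → d * u₀ = u₀ * d → ∀ a : α,
      (c : Equiv.Perm α) a = (d : Equiv.Perm α) a → c = d := by
    intro c d hc hd a h
    refine Subtype.ext (Equiv.ext fun b => ?_)
    obtain ⟨i, rfl⟩ := hcyc.exists_zpow_eq (hmove a) (hmove b)
    have hc' : Commute (c : Equiv.Perm α) ((u₀ : Equiv.Perm α) ^ i) :=
      (show Commute (c : Equiv.Perm α) u₀ from congrArg Subtype.val hc).zpow_right i
    have hd' : Commute (d : Equiv.Perm α) ((u₀ : Equiv.Perm α) ^ i) :=
      (show Commute (d : Equiv.Perm α) u₀ from congrArg Subtype.val hd).zpow_right i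
    rw [← Equiv.Perm.mul_apply, hc'.eq, Equiv.Perm.mul_apply, h, ← Equiv.Perm.mul_apply, ← hd'.eq,
      Equiv.Perm.mul_apply]
  have hPcomm : ∀ c ∈ Subgroup.zpowers u₀, c * u₀ = u₀ * c := fun c hc => by
    obtain ⟨i, rfl⟩ := Subgroup.mem_zpowers_iff.1 hc
    exact ((Commute.refl u₀).zpow_left i).eq
  have hC : Subgroup.centralizer ({u₀} : Set G) = Subgroup.zpowers u₀ := by
    refine le_antisymm (fun c hc => ?_) (Subgroup.zpowers_le.2
      (Subgroup.mem_centralizer_singleton_iff.2 rfl))
    obtain ⟨i, hi⟩ := hcyc.exists_zpow_eq (hmove a₀) (hmove ((c : Equiv.Perm α) a₀))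
    have := hcomm_ext c (u₀ ^ i) (Subgroup.mem_centralizer_singleton_iff.1 hc)
      ((Commute.refl u₀).zpow_left i).eq a₀ (by rw [Subgroup.coe_zpow]; exact hi.symm)
    exact this ▸ Subgroup.zpow_mem_zpowers u₀ i
  -- the complement
  set N := Subgroup.normalizer (Subgroup.zpowers u₀ : Set G) with hN
  have hPN : Subgroup.normalizer ((P : Subgroup G) : Set G) = N := by rw [hN, hz]
  have hEN : E ≤ N := hPE ▸ le_sup_right
  have hPN' : Subgroup.normalizer (P : Set G) = N := hPN
  obtain ⟨ψ, -, hψker⟩ := Blocks.OrderP.exists_normalizer_hom hu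
  set f : E →* (ZMod p)ˣ := ψ.comp (Subgroup.inclusion hEN) with hf
  have hfinj : Function.Injective f := by
    refine (injective_iff_map_eq_one f).2 fun x hx => ?_
    have h1 : Subgroup.inclusion hEN x ∈ ψ.ker := hx
    rw [hψker, Subgroup.mem_subgroupOf, Blocks.HeightZero.centralizer_zpowers_eq, hC] at h1
    have h2 : (x : G) ∈ Subgroup.zpowers u₀ ⊓ E := ⟨h1, x.2⟩
    rw [hPE', Subgroup.mem_bot] at h2
    exact Subtype.ext h2
  haveI : IsCyclic E := isCyclic_of_injective f hfinj
  obtain ⟨⟨s, hsE⟩, hsgen⟩ := IsCyclic.exists_generator (α := E)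
  have hsz : Subgroup.zpowers s = E := by
    refine le_antisymm (Subgroup.zpowers_le.2 hsE) fun x hx => ?_
    obtain ⟨k, hk⟩ := Subgroup.mem_zpowers_iff.1 (hsgen ⟨x, hx⟩)
    exact ⟨k, congrArg Subtype.val hk⟩
  set e := orderOf s with he_def
  have hEc : Nat.card E = e := by rw [← hsz, Nat.card_zpowers]
  have hediv : e ∣ p - 1 := by
    have h := Subgroup.card_dvd_of_injective f hfinj
    rwa [hEc, Nat.card_eq_fintype_card, ZMod.card_units] at h
  have hgen : ∀ n ∈ N, ∃ k < e, ∃ x ∈ Subgroup.zpowers u₀, n = s ^ k * x := by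
    intro n hn
    rw [← hPE, sup_comm] at hn
    have h := Subgroup.coe_mul_of_left_le_normalizer_right E (Subgroup.zpowers u₀) hEN
    obtain ⟨y, hy, x, hx, rfl⟩ : n ∈ (E : Set G) * (Subgroup.zpowers u₀ : Set G) := h ▸ hn
    obtain ⟨k, rfl⟩ : ∃ k : ℕ, s ^ k = y :=
      mem_powers_iff_mem_zpowers.2 (hsz.symm ▸ hy)
    exact ⟨k % e, Nat.mod_lt _ (orderOf_pos s), x, hx, by rw [he_def, pow_mod_orderOf]⟩
  -- normal subgroups contain the Sylow subgroup
  haveI : MulAction.IsPreprimitive G α :=
    MulAction.IsPreprimitive.of_prime_card (hαc ▸ hp.out)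
  have hnormal : ∀ K : Subgroup G, K.Normal → K ≠ ⊥ → Subgroup.zpowers u₀ ≤ K := by
    intro K hK hKne
    haveI := hK
    have hfp : MulAction.fixedPoints K α ≠ Set.univ := by
      intro h
      refine hKne ((Subgroup.eq_bot_iff_forall K).2 fun k hk => Subtype.ext (Equiv.ext fun a => ?_))
      exact (Set.eq_univ_iff_forall.1 h a ⟨k, hk⟩)
    haveI : MulAction.IsPretransitive K α :=
      MulAction.IsQuasiPreprimitive.isPretransitive_of_normal hfp
    have hK1 : p ∣ Nat.card K := by
      have h := (MulAction.stabilizer K a₀).index_dvd_card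
      rwa [MulAction.index_stabilizer_of_transitive, hαc] at h
    refine Subgroup.zpowers_le.2 ?_
    have hcop : Nat.Coprime p K.index := hp.out.coprime_iff_not_dvd.2 fun h => hsq (by
      rw [pow_two, ← Subgroup.card_mul_index K]
      exact mul_dvd_mul hK1 h)
    have h1 : orderOf (QuotientGroup.mk' K u₀) ∣ p := hu ▸ orderOf_map_dvd _ u₀
    have h2 : orderOf (QuotientGroup.mk' K u₀) ∣ K.index := orderOf_dvd_natCard _
    exact (QuotientGroup.eq_one_iff u₀).1
      (orderOf_eq_one_iff.1 (Nat.eq_one_of_dvd_coprimes hcop h1 h2))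
  obtain ⟨χ, hχdeg, hχuniq⟩ := huniq
  have hχ : Setting.Flip.IsChi p χ := ⟨hχdeg, hχuniq⟩
  have hnab : commutator G ≠ ⊥ := fun h => by
    have h1 := (Chars.commutator_le_charKer_iff χ).1 (h ▸ bot_le)
    rw [hχ.map_one, Nat.cast_eq_one] at h1
    exact hp.out.ne_one h1
  have hPle := hnormal (commutator G) inferInstance hnab
  have hperfect : commutator G = ⊤ := by
    by_contra hne
    obtain ⟨g, -, hg⟩ := SetLike.exists_of_lt (lt_top_iff_ne_top.2 hne)
    have hg1 : Abelianization.of g ≠ 1 := fun h => hg (Abelianization.ker_of G ▸ h)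
    obtain ⟨l₀, hl₀⟩ := CommGroup.exists_apply_ne_one_of_hasEnoughRootsOfUnity (Abelianization G) ℂ
      hg1
    set l : G →* ℂˣ := l₀.comp Abelianization.of with hl
    have hlker : commutator G ≤ l.ker := Abelianization.commutator_subset_ker l
    have hdeg : charDegree (fun x => (l x : ℂ) * (χ : G → ℂ) x) = p := by
      refine Chars.charDegree_eq_of_map_one ?_
      rw [map_one, Units.val_one, one_mul, hχ.map_one]
    have heq := hχ.uniq ⟨_, Chars.isIrrCharacter_linear_mul χ.2 l⟩ hdeg
    have hlp : ∀ x : G, l x ^ p = 1 := by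
      intro x
      have h1 := Chars.Induced.detChar_linear_mul χ.2 l hχ.map_one x
      rw [show (fun x => (l x : ℂ) * (χ : G → ℂ) x) = (χ : G → ℂ) from
        congrArg Subtype.val heq] at h1
      obtain ⟨n, ρ, hρ, hρχ⟩ := χ.2
      have hd : detChar (χ : G → ℂ) x ≠ 0 := by
        rw [Chars.Induced.detChar_eq_of_rep χ.2 ρ hρχ, ← Chars.Induced.repDet_apply]
        exact Units.ne_zero _
      exact Units.ext (by rw [Units.val_pow_eq_pow_val, Units.val_one]
                          exact (mul_eq_right₀ hd).1 h1.symm)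
    have hNl : N ≤ l.ker := by
      rw [← hPE]
      refine sup_le (hPle.trans hlker) fun x hx => ?_
      have h1 : orderOf (l x) ∣ p := orderOf_dvd_of_pow_eq_one (hlp x)
      have h2 : orderOf (l x) ∣ p - 1 :=
        (orderOf_map_dvd l x).trans ((hEc ▸ Subgroup.orderOf_dvd_natCard E hx).trans hediv)
      refine orderOf_eq_one_iff.1 (Nat.eq_one_of_dvd_coprimes ?_ h1 h2)
      refine hp.out.coprime_iff_not_dvd.2 fun h => ?_
      have := Nat.le_of_dvd (by have := hp.out.two_le; omega) h
      have := hp.out.two_le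
      omega
    have htop := Sylow.normalizer_sup_eq_top' P (N := commutator G) (hz ▸ hPle)
    rw [hPN'] at htop
    have hall : (⊤ : Subgroup G) ≤ l.ker := htop ▸ sup_le hNl hlker
    exact hl₀ (MonoidHom.mem_ker.1 (hall (Subgroup.mem_top g)))
  have he2 : 2 ≤ e := by
    by_contra hlt
    have he1 : e = 1 := by have := orderOf_pos s; omega
    have hEb : E = ⊥ := Subgroup.eq_bot_of_card_eq E (hEc.trans he1)
    rw [hEb, sup_bot_eq] at hPE
    have hle : Subgroup.normalizer ((P : Subgroup G) : Set G) ≤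
        Subgroup.centralizer ((P : Subgroup G) : Set G) := by
      rw [hPN, ← hz, Blocks.HeightZero.centralizer_zpowers_eq, hC, ← hPE]
    have hK := MonoidHom.ker_transferSylow_isComplement' P hle
    haveI : IsMulCommutative (P : Subgroup G) := by
      rw [← hz]; infer_instance
    have htopker : (MonoidHom.transferSylow P hle).ker = ⊤ := by
      refine top_le_iff.1 (hperfect ▸ ?_)
      rw [commutator_eq_closure, Subgroup.closure_le]
      rintro _ ⟨a, b, rfl⟩
      show MonoidHom.transferSylow P hle _ = 1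
      rw [map_commutatorElement, commutatorElement_eq_one_iff_mul_comm]
      exact IsMulCommutative.is_comm.comm _ _
    rw [htopker, Subgroup.isComplement'_top_left] at hK
    rw [← Nat.card_zpowers, hz, hK, Subgroup.card_bot] at hu
    exact hp.out.ne_one hu.symm
  have hsimple : IsSimpleGroup G := by
    haveI : Nontrivial G := ⟨⟨u₀, 1, fun h => by
      rw [h, orderOf_one] at hu; exact hp.out.ne_one hu.symm⟩⟩
    refine ⟨fun K hK => or_iff_not_imp_left.2 fun hne => ?_⟩
    haveI := hK
    have htop := Sylow.normalizer_sup_eq_top' P (N := K) (hz ▸ hnormal K hK hne)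
    rw [hPN', ← hPE] at htop
    have htop' : K ⊔ E = ⊤ := by
      refine top_le_iff.1 (htop ▸ ?_)
      exact sup_le (sup_le ((hnormal K hK hne).trans le_sup_left) le_sup_right) le_sup_left
    refine top_le_iff.1 (hperfect ▸
      Subgroup.Normal.commutator_le_of_self_sup_commutative_eq_top htop' inferInstance)
  -- fixed points of elements of the complement
  have hfix : ∀ x : G, x ∈ E → x ≠ 1 → ∀ a b : α, (x : Equiv.Perm α) a = a →
      (x : Equiv.Perm α) b = b → a = b := by
    intro x hx hx1 a b ha hb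
    by_contra hab
    obtain ⟨i, hi⟩ := hcyc.exists_zpow_eq (hmove a) (hmove b)
    have hvP : u₀ ^ i ∈ Subgroup.zpowers u₀ := Subgroup.zpow_mem_zpowers u₀ i
    have hwP : x * u₀ ^ i * x⁻¹ ∈ Subgroup.zpowers u₀ :=
      (Subgroup.mem_set_normalizer_iff.1 (hEN hx) _).1 hvP
    have hxa : ((x⁻¹ : G) : Equiv.Perm α) a = a := by
      rw [Subgroup.coe_inv, Equiv.Perm.inv_eq_iff_eq]; exact ha.symm
    have heq : x * u₀ ^ i * x⁻¹ = u₀ ^ i := hcomm_ext _ _ (hPcomm _ hwP) (hPcomm _ hvP) a (by
      rw [Subgroup.coe_mul, Subgroup.coe_mul, Equiv.Perm.mul_apply, hxa, Equiv.Perm.mul_apply,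
        Subgroup.coe_zpow, hi, hb])
    have hv1 : u₀ ^ i ≠ 1 := fun h => by
      rw [← Subgroup.coe_zpow, h] at hi
      exact hab hi
    have hzv : Subgroup.zpowers (u₀ ^ i) = Subgroup.zpowers u₀ := by
      refine Subgroup.eq_of_le_of_card_ge (Subgroup.zpowers_le.2 hvP) ?_
      rw [Nat.card_zpowers, Nat.card_zpowers, hu]
      rcases (Nat.dvd_prime hp.out).1 (hu ▸ Nat.card_zpowers u₀ ▸
        Subgroup.orderOf_dvd_natCard _ hvP) with h | h
      · exact absurd (orderOf_eq_one_iff.1 h) hv1
      · exact h.ge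
    have hxc : x ∈ Subgroup.centralizer ({u₀} : Set G) := by
      rw [← Blocks.HeightZero.centralizer_zpowers_eq, ← hzv,
        Blocks.HeightZero.centralizer_zpowers_eq, Subgroup.mem_centralizer_singleton_iff]
      exact mul_inv_eq_iff_eq_mul.1 heq
    rw [hC] at hxc
    have h2 : x ∈ Subgroup.zpowers u₀ ⊓ E := ⟨hxc, hx⟩
    rw [hPE', Subgroup.mem_bot] at h2
    exact hx1 h2
  have hem : 2 * e ∣ p - 1 := by
    obtain ⟨m, hm⟩ := hediv
    have hp2 : p ≠ 2 := by
      rintro rfl
      have := Nat.le_of_dvd Nat.one_pos (show e ∣ 1 from ⟨m, hm⟩)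
      omega
    have hodd := hp.out.odd_of_ne_two hp2
    have hme : Even m := by
      rcases Nat.even_or_odd e with hee | heo
      · have hsign : Equiv.Perm.sign (s : Equiv.Perm α) = 1 := by
          have h := (Abelianization.commutator_subset_ker
            (Equiv.Perm.sign.comp G.subtype)) (hperfect ▸ Subgroup.mem_top s)
          exact h
        have h := sign_one_of_semiregular (σ := (s : Equiv.Perm α)) (m := m)
          (by rw [Subgroup.orderOf_coe]) he2 (by have := hp.out.two_le; omega)
          (fun k hk a b ha hb => hfix (s ^ k) (pow_mem hsE k)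
            (fun h => hk (by rw [← Subgroup.coe_pow, h, Subgroup.coe_one])) a b
            (by rw [Subgroup.coe_pow]; exact ha) (by rw [Subgroup.coe_pow]; exact hb))
        rw [hsign, pow_add, (hee.mul_right m).neg_one_pow, one_mul] at h
        rcases Nat.even_or_odd m with h' | h'
        · exact h'
        · rw [h'.neg_one_pow] at h; exact absurd h (by decide)
      · have hev : Even (e * m) := by rw [← hm]; exact Nat.Odd.sub_odd hodd odd_one
        exact (Nat.even_mul.1 hev).resolve_left (Nat.not_even_iff_odd.2 heo)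
    obtain ⟨k, rfl⟩ := hme
    exact ⟨k, by rw [hm]; ring⟩
  have S : Setting p e u₀ s := {
    simple := hsimple
    perfect := hperfect
    hu := hu
    hC := hC
    hidx := hidx
    hs := rfl
    he2 := he2
    hem := hem
    hsN := hEN hsE
    hgen := hgen
    hNE := by rw [hsz, hNE, hEc]
    hTI := fun g x hx hx1 hgx => by
      rw [hsz] at hx hgx ⊢
      by_contra hg
      have h : g * x * g⁻¹ ∈ E ⊓ E.map (MulAut.conj g).toMonoidHom := ⟨hgx, ⟨x, hx, rfl⟩⟩
      rw [hTI g hg, Subgroup.mem_bot, conj_eq_one_iff] at h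
      exact hx1 h }
  obtain ⟨t, r, F⟩ := S.exists_flip
  obtain ⟨K, hFK, hTK, hKc, ⟨iso⟩⟩ := (Nat.even_or_odd e).elim
    (fun he => F.even_case hχ he.two_dvd) (fun he => F.odd_case hχ he)
  refine ⟨?_, K, hFK, hTK, hKc, ⟨iso⟩⟩
  have h5 := S.five_le
  by_contra hcon
  simp only [not_or] at hcon
  have hp9 : p ≠ 9 := fun h => by
    have := hp.out
    rw [h] at this
    norm_num at this
  have hq : p ∉ ({2, 3, 5, 7, 9, 11} : Finset ℕ) := by
    simp only [Finset.mem_insert, Finset.mem_singleton, not_or]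
    omega
  obtain ⟨H, hH⟩ := exists_index_eq iso (MulAction.stabilizer G a₀)
  have hHidx : H.index = p :=
    hH.trans ((MulAction.index_stabilizer_of_transitive G a₀).trans hαc)
  have hlt := (Cfsg.Agent.S0806.result hKc hq).1 H fun h => by
    rw [h, Subgroup.index_top] at hHidx
    exact hp.out.ne_one hHidx.symm
  omega

end CfsgLib.PrimeTI
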